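import Cfsg.Agent.H6.Ly.M.D0

set_option autoImplicit false
set_option maxRecDepth 100000
set_option Elab.async false

namespace Cfsg.H6.Ly.M

theorem d79 : Nat.beq (trF (P.img P.d code) [77,5,3,7] (code 5)) (code 79) = true := by
  decide +kernel

theorem d80 : Nat.beq (trF (P.img P.d code) [77,5,3,7,5] (code 5)) (code 80) = true := by
  decide +kernel

theorem d81 : Nat.beq (trF (P.img P.d code) [77,5,3,7,1] (code 5)) (code 81) = true := by
  decide +kernel

theorem d82 : Nat.beq (trF (P.img P.d code) [3] (code 1)) (code 82) = true := by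
  decide +kernel

theorem d83 : Nat.beq (trF (P.img P.d code) [5,77,5,3,7,71,7] (code 72)) (code 83) = true := by
  decide +kernel

theorem d84 : Nat.beq (trF (P.img P.d code) [7,50,77] (code 49)) (code 84) = true := by
  decide +kernel

theorem d85 : Nat.beq (trF (P.img P.d code) [1] (code 1)) (code 85) = true := by
  decide +kernel

theorem d86 : Nat.beq (trF (P.img P.d code) [3] (code 1)) (code 86) = true := by
  decide +kernel

theorem d87 : Nat.beq (trF (P.img P.d code) [4,1,3] (code 2)) (code 87) = true := by
  decide +kernel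

theorem d88 : Nat.beq (trF (P.img P.d code) [27] (code 7)) (code 88) = true := by
  decide +kernel

theorem d89 : Nat.beq (trF (P.img P.d code) [5,2,8] (code 77)) (code 89) = true := by
  decide +kernel

theorem d90 : Nat.beq (trF (P.img P.d code) [89,89] (code 89)) (code 90) = true := by
  decide +kernel

theorem d91 : Nat.beq (trF (P.img P.d code) [1,5,77] (code 7)) (code 91) = true := by
  decide +kernel

theorem d92 : Nat.beq (trF (P.img P.d code) [78,3,78,78,7,2,3,3,78,78,8,1,7,4,8,77,4,77,7,1,3,7,1,1,8,2,7,78,7] (code 7)) (code 92) = true := by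
  decide +kernel

theorem d93 : Nat.beq (trF (P.img P.d code) [3,8] (code 92)) (code 93) = true := by
  decide +kernel

theorem d94 : Nat.beq (trF (P.img P.d code) [2,3,8,2,2,8,3,78,78,7,2,77,3,3,6,78,2,8,2,8,2,6,2,7,7,4,5,1,6] (code 7)) (code 94) = true := by
  decide +kernel

theorem d95 : Nat.beq (trF (P.img P.d code) [8,1] (code 94)) (code 95) = true := by
  decide +kernel


end Cfsg.H6.Ly.M
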