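import Cfsg.Agent.H6.Ly.M.D0

set_option autoImplicit false
set_option maxRecDepth 100000
set_option Elab.async false

namespace Cfsg.H6.Ly.M

theorem d96 : Nat.beq (trF (P.img P.d code) [96] (code 95)) P.one = true := by
  decide +kernel

theorem d97 : Nat.beq (trF (P.img P.d code) [77,8,77,77,4,1,7,1,7,78,3,8,1,4,78,3,3,78,8,3,7,7,7,78,1,7,78,78,1] (code 2)) (code 97) = true := by
  decide +kernel

theorem d98 : Nat.beq (trF (P.img P.d code) [4,7] (code 97)) (code 98) = true := by
  decide +kernel

theorem d99 : Nat.beq (trF (P.img P.d code) [99] (code 98)) P.one = true := by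
  decide +kernel

theorem d100 : Nat.beq (trF (P.img P.d code) [3,2,77,77,8,2,77,8,8,8,4,7,77,4,4,4,78,4,77,1,7,4,7,77,8,3,8,4,2] (code 8)) (code 100) = true := by
  decide +kernel

theorem d101 : Nat.beq (trF (P.img P.d code) [4,2] (code 100)) (code 101) = true := by
  decide +kernel

theorem d102 : Nat.beq (trF (P.img P.d code) [102] (code 93)) P.one = true := by
  decide +kernel

theorem d103 : Nat.beq (trF (P.img P.d code) [96,99,95,101,101,93,101,98,96,96,102] (code 93)) (code 103) = true := by
  decide +kernel

theorem d104 : Nat.beq (trF (P.img P.d code) [103,103,103,103] (code 103)) (code 104) = true := by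
  decide +kernel

theorem d105 : Nat.beq (trF (P.img P.d code) [105] (code 101)) P.one = true := by
  decide +kernel

theorem d106 : Nat.beq (trF (P.img P.d code) [8,1,1,8,3,77,77,7,1,1,6,8,2,8,4,2,78,6,3,1,77,1,77,77,3,2,3,78,6] (code 4)) (code 106) = true := by
  decide +kernel

theorem d107 : Nat.beq (trF (P.img P.d code) [8,78] (code 106)) (code 107) = true := by
  decide +kernel


end Cfsg.H6.Ly.M
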