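import Cfsg.Agent.H6.Ly.M.D0

set_option autoImplicit false
set_option maxRecDepth 100000
set_option Elab.async false

namespace Cfsg.H6.Ly.M

theorem r67 : Nat.beq (trF (P.img P.d code) [3,1,4,2,4,4,2,4,5,3,3,5,3,7,5,4,4,7,5,3,5] (code 67)) P.one = true := by
  decide +kernel

theorem r68 : Nat.beq (trF (P.img P.d code) [3,3,1,3,5,3,3,6,2,5,1,7,5,2,3,5,2,7,5,1] (code 69)) P.one = true := by
  decide +kernel

theorem r69 : Nat.beq (trF (P.img P.d code) [3,2,3,3,2,3,5,3,1,4,7,5,3,1,4,7,5,1] (code 71)) P.one = true := by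
  decide +kernel

theorem r70 : Nat.beq (trF (P.img P.d code) [1,4,1,3,3,1,6,1,3,2,7,5,1,6,4,6,2,7] (code 73)) P.one = true := by
  decide +kernel

theorem r71 : Nat.beq (trF (P.img P.d code) [4,1,3,1,3,6,2,6,1,6,7,5,4,6,1,5] (code 75)) P.one = true := by
  decide +kernel

theorem r72 : Nat.beq (trF (P.img P.d code) [19,77,46] (code 78)) P.one = true := by
  decide +kernel

theorem r73 : Nat.beq (trF (P.img P.d code) [21,77,48] (code 78)) P.one = true := by
  decide +kernel

theorem r74 : Nat.beq (trF (P.img P.d code) [23,77,50] (code 78)) P.one = true := by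
  decide +kernel

theorem r75 : Nat.beq (trF (P.img P.d code) [25,77,52] (code 78)) P.one = true := by
  decide +kernel

theorem r76 : Nat.beq (trF (P.img P.d code) [27,77,54] (code 78)) P.one = true := by
  decide +kernel

theorem r77 : Nat.beq (trF (P.img P.d code) [11,77,56] (code 78)) P.one = true := by
  decide +kernel

theorem r78 : Nat.beq (trF (P.img P.d code) [13,77,58] (code 78)) P.one = true := by
  decide +kernel


end Cfsg.H6.Ly.M
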