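import Cfsg.Agent.H6.Ly.M.D0

set_option autoImplicit false
set_option maxRecDepth 100000
set_option Elab.async false

namespace Cfsg.H6.Ly.M

theorem r79 : Nat.beq (trF (P.img P.d code) [15,77,60] (code 78)) P.one = true := by
  decide +kernel

theorem r80 : Nat.beq (trF (P.img P.d code) [77,30] (code 77)) P.one = true := by
  decide +kernel

theorem r81 : Nat.beq (trF (P.img P.d code) [77,17,77,17,77,29] (code 17)) P.one = true := by
  decide +kernel

theorem r82 : Nat.beq (trF (P.img P.d code) [77,61,77,69,77] (code 39)) P.one = true := by
  decide +kernel

theorem r83 : Nat.beq (trF (P.img P.d code) [33,78,71,77,31,77,37] (code 78)) P.one = true := by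
  decide +kernel

theorem r84 : Nat.beq (trF (P.img P.d code) [65,77,63,78,67,78,73] (code 77)) P.one = true := by
  decide +kernel

theorem r85 : Nat.beq (trF (P.img P.d code) [41,77,35,78,43,78,75] (code 77)) P.one = true := by
  decide +kernel

theorem r86 : Nat.beq (trF (P.img P.d code) [2] (code 1)) P.one = true := by
  decide +kernel

theorem r87 : Nat.beq (trF (P.img P.d code) [4] (code 3)) P.one = true := by
  decide +kernel

theorem r88 : Nat.beq (trF (P.img P.d code) [6] (code 5)) P.one = true := by
  decide +kernel

theorem r89 : Nat.beq (trF (P.img P.d code) [8] (code 7)) P.one = true := by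
  decide +kernel

theorem r90 : Nat.beq (trF (P.img P.d code) [10] (code 9)) P.one = true := by
  decide +kernel

theorem r91 : Nat.beq (trF (P.img P.d code) [12] (code 11)) P.one = true := by
  decide +kernel

theorem r92 : Nat.beq (trF (P.img P.d code) [14] (code 13)) P.one = true := by
  decide +kernel

theorem r93 : Nat.beq (trF (P.img P.d code) [16] (code 15)) P.one = true := by
  decide +kernel

theorem r94 : Nat.beq (trF (P.img P.d code) [18] (code 17)) P.one = true := by
  decide +kernel

theorem r95 : Nat.beq (trF (P.img P.d code) [20] (code 19)) P.one = true := by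
  decide +kernel

theorem r96 : Nat.beq (trF (P.img P.d code) [22] (code 21)) P.one = true := by
  decide +kernel

theorem r97 : Nat.beq (trF (P.img P.d code) [24] (code 23)) P.one = true := by
  decide +kernel

theorem r98 : Nat.beq (trF (P.img P.d code) [26] (code 25)) P.one = true := by
  decide +kernel

theorem r99 : Nat.beq (trF (P.img P.d code) [28] (code 27)) P.one = true := by
  decide +kernel

theorem r100 : Nat.beq (trF (P.img P.d code) [30] (code 29)) P.one = true := by
  decide +kernel

theorem r101 : Nat.beq (trF (P.img P.d code) [32] (code 31)) P.one = true := by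
  decide +kernel

theorem r102 : Nat.beq (trF (P.img P.d code) [34] (code 33)) P.one = true := by
  decide +kernel

theorem r103 : Nat.beq (trF (P.img P.d code) [36] (code 35)) P.one = true := by
  decide +kernel

theorem r104 : Nat.beq (trF (P.img P.d code) [38] (code 37)) P.one = true := by
  decide +kernel

theorem r105 : Nat.beq (trF (P.img P.d code) [40] (code 39)) P.one = true := by
  decide +kernel

theorem r106 : Nat.beq (trF (P.img P.d code) [42] (code 41)) P.one = true := by
  decide +kernel

theorem r107 : Nat.beq (trF (P.img P.d code) [44] (code 43)) P.one = true := by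
  decide +kernel

theorem r108 : Nat.beq (trF (P.img P.d code) [46] (code 45)) P.one = true := by
  decide +kernel


end Cfsg.H6.Ly.M
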