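import Cfsg.Agent.H6.Ly.M.D0

set_option autoImplicit false
set_option maxRecDepth 100000
set_option Elab.async false

namespace Cfsg.H6.Ly.M

theorem r109 : Nat.beq (trF (P.img P.d code) [48] (code 47)) P.one = true := by
  decide +kernel

theorem r110 : Nat.beq (trF (P.img P.d code) [50] (code 49)) P.one = true := by
  decide +kernel

theorem r111 : Nat.beq (trF (P.img P.d code) [52] (code 51)) P.one = true := by
  decide +kernel

theorem r112 : Nat.beq (trF (P.img P.d code) [54] (code 53)) P.one = true := by
  decide +kernel

theorem r113 : Nat.beq (trF (P.img P.d code) [56] (code 55)) P.one = true := by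
  decide +kernel

theorem r114 : Nat.beq (trF (P.img P.d code) [58] (code 57)) P.one = true := by
  decide +kernel

theorem r115 : Nat.beq (trF (P.img P.d code) [60] (code 59)) P.one = true := by
  decide +kernel

theorem r116 : Nat.beq (trF (P.img P.d code) [62] (code 61)) P.one = true := by
  decide +kernel

theorem r117 : Nat.beq (trF (P.img P.d code) [64] (code 63)) P.one = true := by
  decide +kernel

theorem r118 : Nat.beq (trF (P.img P.d code) [66] (code 65)) P.one = true := by
  decide +kernel

theorem r119 : Nat.beq (trF (P.img P.d code) [68] (code 67)) P.one = true := by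
  decide +kernel

theorem r120 : Nat.beq (trF (P.img P.d code) [70] (code 69)) P.one = true := by
  decide +kernel

theorem r121 : Nat.beq (trF (P.img P.d code) [72] (code 71)) P.one = true := by
  decide +kernel

theorem r122 : Nat.beq (trF (P.img P.d code) [74] (code 73)) P.one = true := by
  decide +kernel

theorem r123 : Nat.beq (trF (P.img P.d code) [76] (code 75)) P.one = true := by
  decide +kernel

theorem r124 : Nat.beq (trF (P.img P.d code) [78] (code 77)) P.one = true := by
  decide +kernel

theorem px : Nat.beq (trF (P.img P.d code) [79,79,79,79,79,79,79,79,79,79,79,79,79,79,79,79,79,79,79,79,79,79,79,79,79,79,79,79,79,79,79,79,79,79,79,79,79,79,79,79,79,79,79,79,79,79,79,79,79,79,79,79,79,79,79,79,79,79,79,79,79,79,79,79,79,79] (code 79)) P.one = true := by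
  decide +kernel


end Cfsg.H6.Ly.M
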