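import Cfsg.Agent.H6.Ly.M.D0

set_option autoImplicit false
set_option maxRecDepth 100000
set_option Elab.async false

namespace Cfsg.H6.Ly.M

theorem pa0 : Nat.beq (trF (P.img P.d code) [80,80,80,80,80,80,80,80,80,80,80,80,80,80,80,80,80,80,80,80,80] (code 80)) P.one = true := by
  decide +kernel

theorem pb0 : Nat.beq (trF (P.img P.d code) [5,5,5,5] (code 5)) P.one = true := by
  decide +kernel

theorem pa1 : Nat.beq (trF (P.img P.d code) [81,81,81,81,81,81,81,81,81,81,81,81,81,81,81,81,81,81,81,81,81,81,81,81,81,81,81,81,81,81,81,81] (code 81)) P.one = true := by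
  decide +kernel

theorem pb1 : Nat.beq (trF (P.img P.d code) [1,1,1,1,1,1,1] (code 1)) P.one = true := by
  decide +kernel

theorem pa2 : Nat.beq (trF (P.img P.d code) [82,82,82] (code 82)) P.one = true := by
  decide +kernel

theorem pb2 : Nat.beq (trF (P.img P.d code) [3,3,3,3] (code 3)) P.one = true := by
  decide +kernel

theorem pa3 : Nat.beq (trF (P.img P.d code) [83,83,83,83,83,83] (code 83)) P.one = true := by
  decide +kernel

theorem pb3 : Nat.beq (trF (P.img P.d code) [7,7,7] (code 7)) P.one = true := by
  decide +kernel

theorem pa4 : Nat.beq (trF (P.img P.d code) [84,84,84,84,84,84,84,84] (code 84)) P.one = true := by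
  decide +kernel

theorem pb4 : Nat.beq (trF (P.img P.d code) [77,77,77,77,77,77,77] (code 77)) P.one = true := by
  decide +kernel

theorem l11_0 : allR (P.lab1 1 code (nthN [0,90]) g11 tab11 11 2) 0 11 = true := by
  decide +kernel

theorem v11_0 : dvChk tab11 11 2 1 [[1]] [] [0,1,2,3,4,5,6,7,8,9,10] (unp 10 (nat_lit 0x3000000000000000500000002000000090000000a0000000800000004000000060000000100)) = true := by
  decide +kernel


theorem l37_0 : allR (P.lab1 1 code (nthN [0,91]) g37 tab37 37 2) 0 37 = true := by
  decide +kernel

theorem v37_0 : dvChk tab37 37 2 16 [[1]] [] [0,1,2,3,4,5,6,7,8,9,10,11,12,13,14,15,16,17,18,19,20,21,22,23,24,25,26,27,28,29,30,31,32,33,34,35,36] (unp 36 (nat_lit 0x1c000000020000001a000000000000000500000011000000200000000b00000007000000010000002400000014000000190000000e0000000a000000130000000800000021000000150000001f0000000900000017000000120000000d000000160000001b0000000f0000000300000006000000220000001e0000001800000004000000230000000c0000001000)) = true := by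
  decide +kernel


theorem l67_0 : allR (P.lab1 1 code (nthN [0,79]) g67 tab67 67 2) 0 67 = true := by
  decide +kernel


end Cfsg.H6.Ly.M
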