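import Cfsg.Agent.H6.Ly.M.D0

set_option autoImplicit false
set_option maxRecDepth 100000
set_option Elab.async false

namespace Cfsg.H6.Ly.M

theorem d108 : Nat.beq (trF (P.img P.d code) [105,99,101,98,98,102,95,107,99,101,99] (code 102)) (code 108) = true := by
  decide +kernel

theorem d109 : Nat.beq (trF (P.img P.d code) [109] (code 107)) P.one = true := by
  decide +kernel

theorem d110 : Nat.beq (trF (P.img P.d code) [96,109,96,101,101,95,102,95,99,99,95] (code 107)) (code 110) = true := by
  decide +kernel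

theorem d111 : Nat.beq (trF (P.img P.d code) [6,78,8,4,6,2,4,7,4,2,3,1,78,6,8,1,77,4,8,78,3,7,78,6,4,6,7,77,8] (code 4)) (code 111) = true := by
  decide +kernel

theorem d112 : Nat.beq (trF (P.img P.d code) [6,3,7,5,1,77,5,4,7,3,1,78,6,77,2,6,1,5,3,8,8,5,3,1,78,3,1,77,3] (code 111)) (code 112) = true := by
  decide +kernel

theorem d113 : Nat.beq (trF (P.img P.d code) [6,7,6,6,4,1,7,77,77,3,78,5,5,1,5,8,4,4,1,77,3,5,5,3,1,78,2,78,3] (code 112)) (code 113) = true := by
  decide +kernel

theorem d114 : Nat.beq (trF (P.img P.d code) [78,3,6,2,4,8,78,3] (code 113)) (code 114) = true := by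
  decide +kernel

theorem d115 : Nat.beq (trF (P.img P.d code) [115] (code 114)) P.one = true := by
  decide +kernel


end Cfsg.H6.Ly.M
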