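import Cfsg.Agent.H6.Ly.M.D0

set_option autoImplicit false
set_option maxRecDepth 100000
set_option Elab.async false

namespace Cfsg.H6.Ly.M

theorem d116 : Nat.beq (trF (P.img P.d code) [2,8,77,7,5,5,2,2,78,78,5,1,77,4,2,8,5,2,78,5,5,2,8,2,77,8,77,3,78] (code 78)) (code 116) = true := by
  decide +kernel

theorem d117 : Nat.beq (trF (P.img P.d code) [1,77,4,1,1,7,5,1,77,2,3,8,4,4,78,4,77,6,4,5,5,3,78,2,4,2,7,2,6] (code 116)) (code 117) = true := by
  decide +kernel

theorem d118 : Nat.beq (trF (P.img P.d code) [7,77,7,4,5,77,77,5,2,5,1,5,3,1,1,4,6,77,8,2,4,5,5,78,2,4,5,3,2] (code 117)) (code 118) = true := by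
  decide +kernel

theorem d119 : Nat.beq (trF (P.img P.d code) [5,5,2,4,8,8] (code 118)) (code 119) = true := by
  decide +kernel

theorem d120 : Nat.beq (trF (P.img P.d code) [120] (code 119)) P.one = true := by
  decide +kernel

theorem d121 : Nat.beq (trF (P.img P.d code) [78,2,5,8,5,78,7,6,1,77,6,77,2,78,78,8,4,4,8,8,6,77,1,7,1,6,2,6,78] (code 4)) (code 121) = true := by
  decide +kernel


end Cfsg.H6.Ly.M
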