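import Cfsg.Agent.H6.Ly.M.D0

set_option autoImplicit false
set_option maxRecDepth 100000
set_option Elab.async false

namespace Cfsg.H6.Ly.M

theorem d122 : Nat.beq (trF (P.img P.d code) [1,1,7,1,4,2,4,1,3,78,8,2,77,1,1,7,7,3,77,4,6,7,6,77,3,78,4,78,2] (code 121)) (code 122) = true := by
  decide +kernel

theorem d123 : Nat.beq (trF (P.img P.d code) [78,6,2,8,77,8,3,6,4,6,1,3,1,77,3,6,1,1,6,8,3,6,6,2,3,2,4,5,4] (code 122)) (code 123) = true := by
  decide +kernel

theorem d124 : Nat.beq (trF (P.img P.d code) [6,7,4,4,6,6] (code 123)) (code 124) = true := by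
  decide +kernel

theorem d125 : Nat.beq (trF (P.img P.d code) [125] (code 124)) P.one = true := by
  decide +kernel

theorem d126 : Nat.beq (trF (P.img P.d code) [120,120,115,119,125,115,120,124,115,120,124,120,115,115,115,115,124,124,124,115,119,124,119,124,120,125,115,125,125] (code 115)) (code 126) = true := by
  decide +kernel

theorem d127 : Nat.beq (trF (P.img P.d code) [115,125,115,119,125,125] (code 126)) (code 127) = true := by
  decide +kernel

theorem d128 : Nat.beq (trF (P.img P.d code) [78] (code 7)) (code 128) = true := by
  decide +kernel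

theorem d129 : Nat.beq (trF (P.img P.d code) [128,128,128] (code 128)) (code 129) = true := by
  decide +kernel

theorem d130 : Nat.beq (trF (P.img P.d code) [130] (code 129)) P.one = true := by
  decide +kernel


end Cfsg.H6.Ly.M
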