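import Cfsg.Agent.H6.Ly.M.D0

set_option autoImplicit false
set_option maxRecDepth 100000
set_option Elab.async false

namespace Cfsg.H6.Ly.M

theorem d131 : Nat.beq (trF (P.img P.d code) [120,124,115,120,114,120,125,119,114,114,120,115,125,120,115,120,124,115,125,119,114,119,119,115,115,124,119,124,114] (code 115)) (code 131) = true := by
  decide +kernel

theorem d132 : Nat.beq (trF (P.img P.d code) [119,114,120,114,120,115] (code 131)) (code 132) = true := by
  decide +kernel

theorem d133 : Nat.beq (trF (P.img P.d code) [114,125,115] (code 124)) (code 133) = true := by
  decide +kernel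

theorem d134 : Nat.beq (trF (P.img P.d code) [133,133,133,133] (code 133)) (code 134) = true := by
  decide +kernel

theorem d135 : Nat.beq (trF (P.img P.d code) [135] (code 134)) P.one = true := by
  decide +kernel

theorem d136 : Nat.beq (trF (P.img P.d code) [136] (code 132)) P.one = true := by
  decide +kernel

theorem d137 : Nat.beq (trF (P.img P.d code) [130,127,132,127,130,135,127,136,134,129,135] (code 127)) (code 137) = true := by
  decide +kernel

theorem d138 : Nat.beq (trF (P.img P.d code) [138] (code 127)) P.one = true := by
  decide +kernel

theorem d139 : Nat.beq (trF (P.img P.d code) [135,132,138,134,134,134,136,127,127,136,130] (code 138)) (code 139) = true := by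
  decide +kernel

theorem d140 : Nat.beq (trF (P.img P.d code) [136,129,138,136,129,127,135,135,136,135,129] (code 138)) (code 140) = true := by
  decide +kernel

theorem r0 : Nat.beq (trF (P.img P.d code) [85,85,85] (code 85)) P.one = true := by
  decide +kernel

theorem r1 : Nat.beq (trF (P.img P.d code) [3,3,3,3] (code 3)) P.one = true := by
  decide +kernel

theorem r2 : Nat.beq (trF (P.img P.d code) [86,86,86] (code 86)) P.one = true := by
  decide +kernel

theorem r3 : Nat.beq (trF (P.img P.d code) [2,4,1,1,3] (code 2)) P.one = true := by
  decide +kernel

theorem r4 : Nat.beq (trF (P.img P.d code) [87,87] (code 87)) P.one = true := by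
  decide +kernel

theorem r5 : Nat.beq (trF (P.img P.d code) [6] (code 19)) P.one = true := by
  decide +kernel

theorem r6 : Nat.beq (trF (P.img P.d code) [2,6,1] (code 21)) P.one = true := by
  decide +kernel


end Cfsg.H6.Ly.M
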