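import Cfsg.Agent.H6.Ly.M.D0

set_option autoImplicit false
set_option maxRecDepth 100000
set_option Elab.async false

namespace Cfsg.H6.Ly.M

theorem r7 : Nat.beq (trF (P.img P.d code) [4,6,3] (code 23)) P.one = true := by
  decide +kernel

theorem r8 : Nat.beq (trF (P.img P.d code) [3,6,4] (code 25)) P.one = true := by
  decide +kernel

theorem r9 : Nat.beq (trF (P.img P.d code) [22,20,21,19] (code 27)) P.one = true := by
  decide +kernel

theorem r10 : Nat.beq (trF (P.img P.d code) [19,19,19,19] (code 19)) P.one = true := by
  decide +kernel

theorem r11 : Nat.beq (trF (P.img P.d code) [27,27,27,27] (code 27)) P.one = true := by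
  decide +kernel

theorem r12 : Nat.beq (trF (P.img P.d code) [28,19,27] (code 20)) P.one = true := by
  decide +kernel

theorem r13 : Nat.beq (trF (P.img P.d code) [28,21,27] (code 22)) P.one = true := by
  decide +kernel

theorem r14 : Nat.beq (trF (P.img P.d code) [28,23,27] (code 24)) P.one = true := by
  decide +kernel

theorem r15 : Nat.beq (trF (P.img P.d code) [28,25,27] (code 26)) P.one = true := by
  decide +kernel

theorem r16 : Nat.beq (trF (P.img P.d code) [24,19,23,27,27] (code 20)) P.one = true := by
  decide +kernel

theorem r17 : Nat.beq (trF (P.img P.d code) [26,19,25,28,28] (code 20)) P.one = true := by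
  decide +kernel

theorem r18 : Nat.beq (trF (P.img P.d code) [24,21,23,27] (code 22)) P.one = true := by
  decide +kernel

theorem r19 : Nat.beq (trF (P.img P.d code) [26,21,25] (code 22)) P.one = true := by
  decide +kernel

theorem r20 : Nat.beq (trF (P.img P.d code) [26,23,25,27] (code 24)) P.one = true := by
  decide +kernel

theorem r21 : Nat.beq (trF (P.img P.d code) [21,1,19,19] (code 2)) P.one = true := by
  decide +kernel

theorem r22 : Nat.beq (trF (P.img P.d code) [23,1,26,20,23,23] (code 2)) P.one = true := by
  decide +kernel

theorem r23 : Nat.beq (trF (P.img P.d code) [25,1,26,20,26,23,21,20] (code 2)) P.one = true := by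
  decide +kernel

theorem r24 : Nat.beq (trF (P.img P.d code) [27,1,28,28] (code 2)) P.one = true := by
  decide +kernel

theorem r25 : Nat.beq (trF (P.img P.d code) [21,3,25,19,25,24,22] (code 4)) P.one = true := by
  decide +kernel

theorem r26 : Nat.beq (trF (P.img P.d code) [23,3,23,23,26,20,20] (code 4)) P.one = true := by
  decide +kernel


end Cfsg.H6.Ly.M
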