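import Cfsg.Agent.H6.Ly.M.D0

set_option autoImplicit false
set_option maxRecDepth 100000
set_option Elab.async false

namespace Cfsg.H6.Ly.M

theorem r27 : Nat.beq (trF (P.img P.d code) [27,3,28] (code 4)) P.one = true := by
  decide +kernel

theorem r28 : Nat.beq (trF (P.img P.d code) [8,20,8,3,2,4,20,8,2,20,1,20,2,19,1,3,3] (code 9)) P.one = true := by
  decide +kernel

theorem r29 : Nat.beq (trF (P.img P.d code) [9] (code 9)) P.one = true := by
  decide +kernel

theorem r30 : Nat.beq (trF (P.img P.d code) [19,9,19,4,24,4] (code 10)) P.one = true := by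
  decide +kernel

theorem r31 : Nat.beq (trF (P.img P.d code) [23,9,1,25,19,22,2,4,4] (code 10)) P.one = true := by
  decide +kernel

theorem r32 : Nat.beq (trF (P.img P.d code) [25,9,26,23,4,4] (code 10)) P.one = true := by
  decide +kernel

theorem r33 : Nat.beq (trF (P.img P.d code) [27,9,25,20,23,20] (code 10)) P.one = true := by
  decide +kernel

theorem r34 : Nat.beq (trF (P.img P.d code) [1,1,9,25,28,20,2,3,2,4,4,2] (code 9)) P.one = true := by
  decide +kernel

theorem r35 : Nat.beq (trF (P.img P.d code) [3,9,25,25,23,20] (code 10)) P.one = true := by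
  decide +kernel

theorem r36 : Nat.beq (trF (P.img P.d code) [1,3,3,1,4,1,9,25,28,20,2,2] (code 9)) P.one = true := by
  decide +kernel

theorem r37 : Nat.beq (trF (P.img P.d code) [21,9,22,9,21,26,1,23,1,1,1] (code 9)) P.one = true := by
  decide +kernel

theorem r38 : Nat.beq (trF (P.img P.d code) [10,4,21,2,10,2,10,2,27,25,19,3,1,4,4,2] (code 7)) P.one = true := by
  decide +kernel

theorem r39 : Nat.beq (trF (P.img P.d code) [7,2,2,2,2] (code 7)) P.one = true := by
  decide +kernel


end Cfsg.H6.Ly.M
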