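import Cfsg.Agent.H6.Ly.M.D0

set_option autoImplicit false
set_option maxRecDepth 100000
set_option Elab.async false

namespace Cfsg.H6.Ly.M

theorem r40 : Nat.beq (trF (P.img P.d code) [8,3,7] (code 4)) P.one = true := by
  decide +kernel

theorem r41 : Nat.beq (trF (P.img P.d code) [1,7,2,2,2] (code 8)) P.one = true := by
  decide +kernel

theorem r42 : Nat.beq (trF (P.img P.d code) [88,88,88,88] (code 88)) P.one = true := by
  decide +kernel

theorem r43 : Nat.beq (trF (P.img P.d code) [27,7,28,7,27,2,2] (code 7)) P.one = true := by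
  decide +kernel

theorem r44 : Nat.beq (trF (P.img P.d code) [2] (code 11)) P.one = true := by
  decide +kernel

theorem r45 : Nat.beq (trF (P.img P.d code) [3,2,4] (code 13)) P.one = true := by
  decide +kernel

theorem r46 : Nat.beq (trF (P.img P.d code) [3,3,2,4,4] (code 15)) P.one = true := by
  decide +kernel

theorem r47 : Nat.beq (trF (P.img P.d code) [4,4,2,3,3] (code 17)) P.one = true := by
  decide +kernel

theorem r48 : Nat.beq (trF (P.img P.d code) [2,2] (code 29)) P.one = true := by
  decide +kernel

theorem r49 : Nat.beq (trF (P.img P.d code) [8] (code 31)) P.one = true := by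
  decide +kernel

theorem r50 : Nat.beq (trF (P.img P.d code) [7] (code 33)) P.one = true := by
  decide +kernel

theorem r51 : Nat.beq (trF (P.img P.d code) [4,6,1,4,4,5,8,5,1,6,2,5,4,4,1,3,1,4,4] (code 35)) P.one = true := by
  decide +kernel

theorem r52 : Nat.beq (trF (P.img P.d code) [6,4,6,8,3,3,6,8,3,6,4,6,2,5,4,4,1,4,4,1,4,2] (code 37)) P.one = true := by
  decide +kernel

theorem r53 : Nat.beq (trF (P.img P.d code) [7,5,4,1,5,1,7,5] (code 39)) P.one = true := by
  decide +kernel

theorem r54 : Nat.beq (trF (P.img P.d code) [8,4] (code 41)) P.one = true := by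
  decide +kernel

theorem r55 : Nat.beq (trF (P.img P.d code) [3,7] (code 43)) P.one = true := by
  decide +kernel

theorem r56 : Nat.beq (trF (P.img P.d code) [2,4,5,2,3,5,4,1,3,1] (code 45)) P.one = true := by
  decide +kernel


end Cfsg.H6.Ly.M
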