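import Cfsg.Agent.H6.Ly.M.D0

set_option autoImplicit false
set_option maxRecDepth 100000
set_option Elab.async false

namespace Cfsg.H6.Ly.M

theorem r57 : Nat.beq (trF (P.img P.d code) [4,6,4,1,6,2,3,3] (code 47)) P.one = true := by
  decide +kernel

theorem r58 : Nat.beq (trF (P.img P.d code) [2,4,2,6,1,3,1] (code 49)) P.one = true := by
  decide +kernel

theorem r59 : Nat.beq (trF (P.img P.d code) [4,2,3,6,4,1,3] (code 51)) P.one = true := by
  decide +kernel

theorem r60 : Nat.beq (trF (P.img P.d code) [5,3,3,6,2,4,6,3,1,4,4] (code 53)) P.one = true := by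
  decide +kernel

theorem r61 : Nat.beq (trF (P.img P.d code) [1,1,1] (code 55)) P.one = true := by
  decide +kernel

theorem r62 : Nat.beq (trF (P.img P.d code) [1,1,3,1,4] (code 57)) P.one = true := by
  decide +kernel

theorem r63 : Nat.beq (trF (P.img P.d code) [1,3,3,2,4,4,2] (code 59)) P.one = true := by
  decide +kernel

theorem r64 : Nat.beq (trF (P.img P.d code) [3,2,4,2,3,2,5,1,3,5,4,7,5,4,1,5,3,8,1] (code 61)) P.one = true := by
  decide +kernel

theorem r65 : Nat.beq (trF (P.img P.d code) [7,3,6,1,6,2,6,8,5,5,1,4,5,4,6,1,3,3,2] (code 63)) P.one = true := by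
  decide +kernel

theorem r66 : Nat.beq (trF (P.img P.d code) [6,4,6,8,3,3,6,8,4,6,4,4,6,3,1,3,3,1,3,2,4] (code 65)) P.one = true := by
  decide +kernel


end Cfsg.H6.Ly.M
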